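import Mathlib
import Cfsg.Agent.ClassicalGeometry.AutPSL.Main
import Cfsg.Agent.Prune
set_option linter.all false
prune_inst 0x7f00000000000000000000000000000000000000000000000000000000000000000000000000000000000000000000000000000000000000000000000000000000000000000000000000000000000000003fffffffffffffffffffffffffffbeffbdffffffff
open scoped Cfsg.Agent.FastGrp

-- part: H421/Eleven
section
/-!
# Elements of order 11 in `GL_n(3)`, `n ≤ 9` (helper421)

* `not_contragredient` : an element of order 11 is not conjugate to the transpose of its inverse;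
* `commuting_five`, `commuting_six` : matrices `U` with `U² = ± 1` commuting with an element of order 11.
-/

set_option autoImplicit false

namespace Cfsg.Agent.H421.Eleven

open Matrix

/-- matrices -/
abbrev Mn (n : ℕ) := Matrix (Fin n) (Fin n) (ZMod 3)
/-- vectors -/
abbrev Vn (n : ℕ) := Fin n → ZMod 3

variable {n : ℕ}

theorem card_V : Nat.card (Vn n) = 3 ^ n := by
  rw [Nat.card_fun, Nat.card_zmod, Nat.card_fin]

theorem card_of_fpf (hn : n ≤ 9) (W : AddSubgroup (Vn n)) {Y : Mn n} (hY : Y ^ 11 = 1) (hW : ∀ v ∈ W, Y *ᵥ v ∈ W)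
    (hf : ∀ v ∈ W, Y *ᵥ v = v → v = 0) : Nat.card W = 1 ∨ Nat.card W = 3 ^ 5 := by
  classical
  have h11 : Fact (Nat.Prime 11) := ⟨by norm_num⟩
  let f : Function.End W := fun v => ⟨Y *ᵥ v, hW v v.2⟩
  have hfk : ∀ (k : ℕ) (v : W), (((f ^ k : Function.End W) v : W) : Vn n) = Y ^ k *ᵥ v := by
    intro k
    induction k with
    | zero => intro v; simp [Function.End.one_def]
    | succ k ih =>
      intro v
      rw [pow_succ']
      change Y *ᵥ (((f ^ k : Function.End W) v : W) : Vn n) = _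
      rw [ih, Matrix.mulVec_mulVec, pow_succ']
  have hf11 : f ^ 11 ^ 1 = 1 := by
    funext v
    apply Subtype.ext
    rw [pow_one, hfk, hY, Matrix.one_mulVec]
    rfl
  have h1 := Equiv.Perm.card_fixedPoints_modEq hf11
  have h2 : Fintype.card (Function.fixedPoints f) = 1 := by
    rw [Fintype.card_eq_one_iff]
    refine ⟨⟨0, ?_⟩, ?_⟩
    · apply Subtype.ext
      change Y *ᵥ (0 : Vn n) = 0
      rw [Matrix.mulVec_zero]
    · rintro ⟨v, hv⟩
      apply Subtype.ext
      apply Subtype.ext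
      exact hf v v.2 (congrArg Subtype.val hv)
  rw [h2, ← Nat.card_eq_fintype_card] at h1
  have h3 : Nat.card W ∣ 3 ^ n := by
    rw [← card_V (n := n)]
    exact AddSubgroup.card_addSubgroup_dvd_card W
  obtain ⟨d, hd, hd'⟩ := (Nat.dvd_prime_pow (by norm_num : Nat.Prime 3)).1 h3
  rw [hd'] at h1 ⊢
  have hd9 : d ≤ 9 := hd.trans hn
  clear hd hd' h3 hf11 hfk h2
  interval_cases d
  · left; norm_num
  · exact absurd h1 (by decide)
  · exact absurd h1 (by decide)
  · exact absurd h1 (by decide)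
  · exact absurd h1 (by decide)
  · right; rfl
  · exact absurd h1 (by decide)
  · exact absurd h1 (by decide)
  · exact absurd h1 (by decide)
  · exact absurd h1 (by decide)

theorem card_mul_le {W W' : AddSubgroup (Vn n)} (h : ∀ v ∈ W, v ∈ W' → v = 0) :
    Nat.card W * Nat.card W' ≤ 3 ^ n := by
  rw [← card_V (n := n), ← Nat.card_prod]
  apply Nat.card_le_card_of_injective (fun p : W × W' => (p.1 : Vn n) + p.2)
  rintro ⟨a, b⟩ ⟨c, d⟩ hab
  have h1 : (a : Vn n) - c = d - b := by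
    have : (a : Vn n) + b = c + d := hab
    rw [sub_eq_sub_iff_add_eq_add, this, add_comm]
  have h2 : (a : Vn n) - c = 0 := h _ (W.sub_mem a.2 c.2) (by rw [h1]; exact W'.sub_mem d.2 b.2)
  have h3 : (a : Vn n) = c := sub_eq_zero.1 h2
  rw [h2] at h1
  have h4 : (d : Vn n) = b := sub_eq_zero.1 h1.symm
  exact Prod.ext (Subtype.ext h3) (Subtype.ext h4.symm)

/-- the kernel of a matrix -/
def kr (A : Mn n) : AddSubgroup (Vn n) where
  carrier := {v | A *ᵥ v = 0}
  zero_mem' := Matrix.mulVec_zero A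
  add_mem' := fun {a b} ha hb => by
    change A *ᵥ (a + b) = 0
    rw [Matrix.mulVec_add, ha, hb, add_zero]
  neg_mem' := fun {a} ha => by
    change A *ᵥ (-a) = 0
    rw [Matrix.mulVec_neg, ha, neg_zero]

theorem mem_kr {A : Mn n} {v : Vn n} : v ∈ kr A ↔ A *ᵥ v = 0 := Iff.rfl

theorem three_mul (A : Mn n) : 3 * A = 0 := by
  have : (3 : Mn n) = 0 := by
    have h : ((3 : ℕ) : Mn n) = 0 := by
      ext i j
      rw [Matrix.natCast_apply]
      split_ifs
      · rfl
      · rfl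
    exact_mod_cast h
  rw [this, zero_mul]

/-- first factor -/
def fY (Y : Mn n) : Mn n := Y ^ 5 + 2 * Y ^ 3 + Y ^ 2 + 2 * Y + 2
/-- second factor -/
def gY (Y : Mn n) : Mn n := Y ^ 5 + Y ^ 4 + 2 * Y ^ 3 + Y ^ 2 + 2

theorem factor (Y : Mn n) : (Y - 1) * fY Y * gY Y = Y ^ 11 - 1 := by
  have h : (Y - 1) * fY Y * gY Y = Y ^ 11 - 1 +
      3 * (Y ^ 9 + Y ^ 7 + Y ^ 6 - Y ^ 5 + Y ^ 4 - 2 * Y ^ 3 - 1) := by
    unfold fY gY
    noncomm_ring
  rw [h, three_mul, add_zero]

theorem comm_fY (Y : Mn n) : Y * fY Y = fY Y * Y := by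
  unfold fY; noncomm_ring

theorem comm_gY (Y : Mn n) : Y * gY Y = gY Y * Y := by
  unfold gY; noncomm_ring

theorem two_smul_eq_zero {v : Vn n} (h : (2 : ZMod 3) • v = 0) : v = 0 := by
  have h2 : (2 : ZMod 3) ≠ 0 := by decide
  exact (smul_eq_zero.1 h).resolve_left h2

theorem pow_fix {Y : Mn n} {v : Vn n} (h : Y *ᵥ v = v) (k : ℕ) : Y ^ k *ᵥ v = v := by
  induction k with
  | zero => simp
  | succ k ih => rw [pow_succ, ← Matrix.mulVec_mulVec, h, ih]

theorem two_mulVec (A : Mn n) (v : Vn n) : (2 * A) *ᵥ v = (2 : ZMod 3) • (A *ᵥ v) := by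
  rw [two_mul, Matrix.add_mulVec, two_smul]

theorem two_mulVec' (v : Vn n) : (2 : Mn n) *ᵥ v = (2 : ZMod 3) • v := by
  have := two_mulVec (1 : Mn n) v
  rwa [mul_one, Matrix.one_mulVec] at this

theorem fix_f {Y : Mn n} {v : Vn n} (hv : v ∈ kr (fY Y)) (h : Y *ᵥ v = v) : v = 0 := by
  rw [mem_kr] at hv
  unfold fY at hv
  simp only [Matrix.add_mulVec, two_mulVec, two_mulVec', pow_fix h, h] at hv
  have h1 : v + (2 : ZMod 3) • v + v + (2 : ZMod 3) • v + (2 : ZMod 3) • v = (2 : ZMod 3) • v := by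
    have h2 : (1 + 2 + 1 + 2 + 2 : ZMod 3) • v = v + (2 : ZMod 3) • v + v + (2 : ZMod 3) • v + (2 : ZMod 3) • v := by
      simp only [add_smul, one_smul]
    rw [← h2]
    congr 1
  rw [h1] at hv
  exact two_smul_eq_zero hv

theorem fix_g {Y : Mn n} {v : Vn n} (hv : v ∈ kr (gY Y)) (h : Y *ᵥ v = v) : v = 0 := by
  rw [mem_kr] at hv
  unfold gY at hv
  simp only [Matrix.add_mulVec, two_mulVec, two_mulVec', pow_fix h] at hv
  have h1 : v + v + (2 : ZMod 3) • v + v + (2 : ZMod 3) • v = v := by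
    have h2 : (1 + 1 + 2 + 1 + 2 : ZMod 3) • v = v + v + (2 : ZMod 3) • v + v + (2 : ZMod 3) • v := by
      simp only [add_smul, one_smul]
    rw [← h2]
    have h3 : (1 + 1 + 2 + 1 + 2 : ZMod 3) = 1 := by decide
    rw [h3, one_smul]
  rwa [h1] at hv

theorem kr_inv {A Y : Mn n} (h : Y * A = A * Y) : ∀ v ∈ kr A, Y *ᵥ v ∈ kr A := by
  intro v hv
  rw [mem_kr] at hv ⊢
  rw [Matrix.mulVec_mulVec, ← h, ← Matrix.mulVec_mulVec, hv, Matrix.mulVec_zero]

theorem kr_inf {Y : Mn n} (hY : Y ^ 11 = 1) : ∀ v ∈ kr (fY Y), v ∈ kr (gY Y) → v = 0 := by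
  intro v hf hg
  rw [mem_kr] at hf hg
  have h1 : (fY Y - gY Y) *ᵥ v = 0 := by rw [Matrix.sub_mulVec, hf, hg, sub_zero]
  have h2 : Y ^ 10 * (fY Y - gY Y) = Y ^ 11 * (2 - Y ^ 3) := by
    unfold fY gY; noncomm_ring
  have h3 : (Y ^ 10 * (fY Y - gY Y)) *ᵥ v = 0 := by rw [← Matrix.mulVec_mulVec, h1, Matrix.mulVec_zero]
  rw [h2, hY, one_mul, Matrix.sub_mulVec, two_mulVec', sub_eq_zero] at h3
  have h4 : ∀ k : ℕ, Y ^ (3 * k) *ᵥ v = (2 : ZMod 3) ^ k • v := by
    intro k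
    induction k with
    | zero => simp
    | succ k ih =>
      rw [Nat.mul_succ, pow_add, ← Matrix.mulVec_mulVec, ← h3, Matrix.mulVec_smul, ih, smul_smul, pow_succ, mul_comm]
  have h5 := h4 11
  have h6 : Y ^ (3 * 11) = 1 := by rw [mul_comm, pow_mul, hY, one_pow]
  rw [h6, Matrix.one_mulVec] at h5
  have h7 : ((2 : ZMod 3) ^ 11) = 1 + 1 := by decide
  rw [h7, add_smul, one_smul] at h5
  exact (left_eq_add.1 h5)

theorem kr_ne {A : Mn n} (h : A.det = 0) : Nat.card (kr A) ≠ 1 := by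
  intro h1
  obtain ⟨v, hv, hv'⟩ := Matrix.exists_mulVec_eq_zero_iff.2 h
  have h2 := (Nat.card_eq_one_iff_unique.1 h1).1
  apply hv
  exact congrArg Subtype.val (h2.elim (⟨v, hv'⟩ : kr A) 0)

/-- **An element of order 11 is not conjugate to its contragredient.** -/
theorem not_contragredient (hn : n ≤ 9) {Y M : Mn n} (hM : M.det ≠ 0) (hY : Y ^ 11 = 1) (hne : Y ≠ 1)
    (h : M * (Y ^ 10)ᵀ = Y * M) : False := by
  set Z : Mn n := (Y ^ 10)ᵀ with hZ
  have hpow : ∀ k : ℕ, M * Z ^ k = Y ^ k * M := by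
    intro k
    induction k with
    | zero => simp
    | succ k ih => rw [pow_succ, ← mul_assoc, ih, mul_assoc, h, pow_succ, mul_assoc]
  have hMf : M * fY Z = fY Y * M := by
    have h1 := hpow 5
    have h2 := hpow 3
    have h3 := hpow 2
    have e1 : M * fY Z = M * Z ^ 5 + 2 * (M * Z ^ 3) + M * Z ^ 2 + 2 * (M * Z) + 2 * M := by
      unfold fY; noncomm_ring
    have e2 : fY Y * M = Y ^ 5 * M + 2 * (Y ^ 3 * M) + Y ^ 2 * M + 2 * (Y * M) + 2 * M := by
      unfold fY; noncomm_ring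
    rw [e1, e2, h1, h2, h3, h]
  have hdf : (fY Y).det = (fY Z).det := by
    have h1 := congrArg Matrix.det hMf
    rw [Matrix.det_mul, Matrix.det_mul, mul_comm (fY Y).det] at h1
    exact (mul_left_cancel₀ hM h1).symm
  have hZf : fY Z = (fY (Y ^ 10))ᵀ := by
    unfold fY
    rw [hZ]
    simp only [Matrix.transpose_add, Matrix.transpose_mul, Matrix.transpose_pow]
    have h2 : (2 : Mn n)ᵀ = 2 := Matrix.transpose_ofNat 2
    rw [h2]
    noncomm_ring
  have hY55 : ∀ k r : ℕ, Y ^ (11 * k + r) = Y ^ r := by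
    intro k r
    rw [pow_add, pow_mul, hY, one_pow, one_mul]
  have hfg : fY (Y ^ 10) * Y ^ 5 = 2 * gY Y := by
    have e1 : fY (Y ^ 10) * Y ^ 5 = Y ^ (11 * 5 + 0) + 2 * Y ^ (11 * 3 + 2) + Y ^ (11 * 2 + 3) +
        2 * Y ^ (11 * 1 + 4) + 2 * Y ^ 5 := by
      have p1 : (Y ^ 10) ^ 5 * Y ^ 5 = Y ^ (11 * 5 + 0) := by rw [← pow_mul, ← pow_add]
      have p2 : (Y ^ 10) ^ 3 * Y ^ 5 = Y ^ (11 * 3 + 2) := by rw [← pow_mul, ← pow_add]
      have p3 : (Y ^ 10) ^ 2 * Y ^ 5 = Y ^ (11 * 2 + 3) := by rw [← pow_mul, ← pow_add]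
      have p4 : Y ^ 10 * Y ^ 5 = Y ^ (11 * 1 + 4) := by rw [← pow_add]
      unfold fY
      rw [add_mul, add_mul, add_mul, add_mul, mul_assoc 2 _ (Y ^ 5), mul_assoc 2 _ (Y ^ 5), p1, p2, p3, p4]
    rw [e1, hY55, hY55, hY55, hY55]
    have e2 : Y ^ 0 + 2 * Y ^ 2 + Y ^ 3 + 2 * Y ^ 4 + 2 * Y ^ 5 = 2 * gY Y + 3 * (-1 - Y ^ 3) := by
      have h22 : (2 : Mn n) = 1 + 1 := by norm_num
      have h33 : (3 : Mn n) = 1 + 1 + 1 := by norm_num
      unfold gY
      rw [h22, h33]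
      noncomm_ring
    rw [e2, three_mul, add_zero]
  have hdY : Y.det ≠ 0 := by
    intro h0
    have h1 := congrArg Matrix.det hY
    rw [Matrix.det_pow, h0, Matrix.det_one] at h1
    exact absurd h1 (by decide)
  have hd2 : (2 : Mn n).det ≠ 0 := by
    have h1 : (2 : Mn n) * 2 = 1 := by
      have h2 : (2 : Mn n) * 2 = 1 + 3 * 1 := by norm_num
      rw [h2, three_mul, add_zero]
    intro h0
    have h2 := congrArg Matrix.det h1
    rw [Matrix.det_mul, h0, Matrix.det_one] at h2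
    exact absurd h2 (by decide)
  have hiff : (fY Y).det = 0 → (gY Y).det = 0 := by
    intro h0
    have h1 := congrArg Matrix.det hfg
    rw [Matrix.det_mul, Matrix.det_mul, ← Matrix.det_transpose (fY (Y ^ 10)), ← hZf, ← hdf, h0, zero_mul] at h1
    exact (mul_eq_zero.1 h1.symm).resolve_left hd2
  have hiff' : (gY Y).det = 0 → (fY Y).det = 0 := by
    intro h0
    have h1 := congrArg Matrix.det hfg
    rw [Matrix.det_mul, Matrix.det_mul, ← Matrix.det_transpose (fY (Y ^ 10)), ← hZf, ← hdf, h0, mul_zero,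
      Matrix.det_pow] at h1
    exact (mul_eq_zero.1 h1).resolve_right (pow_ne_zero _ hdY)
  by_cases h0 : (fY Y).det = 0
  · have h1 := hiff h0
    have c1 := (card_of_fpf hn (kr (fY Y)) hY (kr_inv (comm_fY Y)) (fun v hv => fix_f hv)).resolve_left (kr_ne h0)
    have c2 := (card_of_fpf hn (kr (gY Y)) hY (kr_inv (comm_gY Y)) (fun v hv => fix_g hv)).resolve_left (kr_ne h1)
    have h2 := card_mul_le (kr_inf hY)
    rw [c1, c2, ← pow_add] at h2
    have h3 : 3 ^ n ≤ 3 ^ 9 := Nat.pow_le_pow_right (by norm_num) hn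
    norm_num at h2 h3
    omega
  · have h1 : (gY Y).det ≠ 0 := fun h2 => h0 (hiff' h2)
    apply hne
    have h2 := factor Y
    rw [hY, sub_self, mul_assoc] at h2
    have h3 : IsUnit (fY Y * gY Y) := by
      rw [Matrix.isUnit_iff_isUnit_det, Matrix.det_mul]
      exact (mul_ne_zero h0 h1).isUnit
    have h4 : (Y - 1) * (fY Y * gY Y) = 0 * (fY Y * gY Y) := by rw [h2, zero_mul]
    exact sub_eq_zero.1 (h3.mul_right_cancel h4)

/-! ### Commuting matrices -/

/-- the norm of `Y` -/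
def nY (Y : Mn n) : Mn n := ∑ i ∈ Finset.range 11, Y ^ i

theorem sub_mul_nY {Y : Mn n} (hY : Y ^ 11 = 1) : (Y - 1) * nY Y = 0 := by
  unfold nY
  rw [mul_geom_sum, hY, sub_self]

theorem nY_mul_sub {Y : Mn n} (hY : Y ^ 11 = 1) : nY Y * (Y - 1) = 0 := by
  unfold nY
  rw [geom_sum_mul, hY, sub_self]

theorem nY_fix {Y : Mn n} {v : Vn n} (h : Y *ᵥ v = v) : nY Y *ᵥ v = (2 : ZMod 3) • v := by
  unfold nY
  rw [Matrix.sum_mulVec, Finset.sum_congr rfl fun i _ => pow_fix h i, Finset.sum_const, Finset.card_range,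
    ← Nat.cast_smul_eq_nsmul (ZMod 3)]
  rfl

theorem fix_n {Y : Mn n} {v : Vn n} (hv : v ∈ kr (nY Y)) (h : Y *ᵥ v = v) : v = 0 := by
  rw [mem_kr, nY_fix h] at hv
  exact two_smul_eq_zero hv

theorem mulVec_nY {Y : Mn n} (hY : Y ^ 11 = 1) (v : Vn n) : Y *ᵥ (nY Y *ᵥ v) = nY Y *ᵥ v := by
  have h := sub_mul_nY hY
  have h1 : ((Y - 1) * nY Y) *ᵥ v = 0 := by rw [h, Matrix.zero_mulVec]
  rw [← Matrix.mulVec_mulVec, Matrix.sub_mulVec, Matrix.one_mulVec, sub_eq_zero] at h1
  exact h1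

theorem comm_nY {U Y : Mn n} (h : U * Y = Y * U) : U * nY Y = nY Y * U := by
  unfold nY
  rw [Finset.mul_sum, Finset.sum_mul]
  exact Finset.sum_congr rfl fun i _ => (Commute.pow_right h i).eq

/-- the nontrivial part has order `3⁵` -/
theorem card_kr_nY (hn : n ≤ 9) {Y : Mn n} (hY : Y ^ 11 = 1) (hne : Y ≠ 1) : Nat.card (kr (nY Y)) = 3 ^ 5 := by
  refine (card_of_fpf hn (kr (nY Y)) hY (kr_inv (comm_nY rfl)) fun v hv => fix_n hv).resolve_left ?_
  intro h
  have h1 := (Nat.card_eq_one_iff_unique.1 h).1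
  apply hne
  rw [← sub_eq_zero]
  apply Matrix.ext_of_mulVec_single
  intro i
  have h2 : (Y - 1) *ᵥ (Pi.single i 1 : Vn n) ∈ kr (nY Y) := by
    rw [mem_kr, Matrix.mulVec_mulVec, nY_mul_sub hY, Matrix.zero_mulVec]
  have h3 := congrArg Subtype.val (h1.elim (⟨_, h2⟩ : kr (nY Y)) 0)
  rw [Matrix.zero_mulVec]
  exact h3

theorem card_inf (hn : n ≤ 9) {U Y : Mn n} (hY : Y ^ 11 = 1) (hc : U * Y = Y * U) :
    Nat.card (kr (U - 1) ⊓ kr (nY Y) : AddSubgroup (Vn n)) = 1 ∨
      Nat.card (kr (U - 1) ⊓ kr (nY Y) : AddSubgroup (Vn n)) = 3 ^ 5 := by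
  apply card_of_fpf hn _ hY
  · rintro v ⟨h1, h2⟩
    refine ⟨kr_inv ?_ v h1, kr_inv (comm_nY rfl) v h2⟩
    rw [mul_sub, sub_mul, mul_one, one_mul, hc]
  · rintro v ⟨-, h2⟩ h
    exact fix_n h2 h

/-- `U = ± 1` on the nontrivial part, if `U² = 1` -/
theorem scalar_on (hn : n ≤ 9) {U Y : Mn n} (hY : Y ^ 11 = 1) (hne : Y ≠ 1) (hc : U * Y = Y * U) (hU : U * U = 1) :
    (∀ v ∈ kr (nY Y), U *ᵥ v = v) ∨ ∀ v ∈ kr (nY Y), U *ᵥ v = -v := by
  rcases card_inf hn hY hc with h | h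
  · right
    intro v hv
    have h1 := (Nat.card_eq_one_iff_unique.1 h).1
    have h2 : U *ᵥ v + v ∈ kr (U - 1) ⊓ kr (nY Y) := by
      refine ⟨?_, (kr (nY Y)).add_mem (kr_inv (comm_nY hc) v hv) hv⟩
      change (U - 1) *ᵥ (U *ᵥ v + v) = 0
      rw [Matrix.sub_mulVec, Matrix.one_mulVec, Matrix.mulVec_add, Matrix.mulVec_mulVec, hU, Matrix.one_mulVec]
      abel
    have h3 : U *ᵥ v + v = 0 :=
      congrArg Subtype.val (h1.elim (⟨_, h2⟩ : (kr (U - 1) ⊓ kr (nY Y) : AddSubgroup (Vn n))) 0)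
    exact eq_neg_of_add_eq_zero_left h3
  · left
    have h1 : kr (U - 1) ⊓ kr (nY Y) = kr (nY Y) := by
      apply SetLike.coe_injective
      apply Set.eq_of_subset_of_ncard_le
      · exact fun v hv => hv.2
      · have e1 : (kr (nY Y) : Set (Vn n)).ncard = 3 ^ 5 := by
          rw [← card_kr_nY hn hY hne]; rfl
        have e2 : ((kr (U - 1) ⊓ kr (nY Y) : AddSubgroup (Vn n)) : Set (Vn n)).ncard = 3 ^ 5 := by
          rw [← h]; rfl
        rw [e1, e2]
      · exact Set.toFinite _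
    intro v hv
    rw [← h1] at hv
    have h2 : (U - 1) *ᵥ v = 0 := hv.1
    rw [Matrix.sub_mulVec, Matrix.one_mulVec, sub_eq_zero] at h2
    exact h2

theorem eq_of_mulVec {A B : Mn n} (h : ∀ v, A *ᵥ v = B *ᵥ v) : A = B := by
  apply Matrix.ext_of_mulVec_single
  exact fun i => h _

theorem commuting_five {U Y : Mn 5} (hY : Y ^ 11 = 1) (hne : Y ≠ 1) (hc : U * Y = Y * U)
    (hU : U * U = 1 ∨ U * U = -1) : U = 1 ∨ U = -1 := by
  have hU1 : U * U = 1 := by
    refine hU.resolve_right fun h => ?_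
    have h1 := congrArg Matrix.det h
    rw [Matrix.det_mul, Matrix.det_neg, Matrix.det_one, Fintype.card_fin] at h1
    revert h1
    generalize U.det = x
    revert x
    decide
  have htop : ∀ v : Vn 5, v ∈ kr (nY Y) := by
    have h1 : (kr (nY Y) : Set (Vn 5)) = Set.univ := by
      apply Set.eq_of_subset_of_ncard_le (Set.subset_univ _)
      · have e1 : (kr (nY Y) : Set (Vn 5)).ncard = 3 ^ 5 := by
          rw [← card_kr_nY (by norm_num) hY hne]; rfl
        rw [e1, Set.ncard_univ, card_V]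
    intro v
    have : v ∈ (Set.univ : Set (Vn 5)) := Set.mem_univ v
    rw [← h1] at this
    exact this
  rcases scalar_on (by norm_num) hY hne hc hU1 with h | h
  · left
    apply eq_of_mulVec
    intro v
    rw [h v (htop v), Matrix.one_mulVec]
  · right
    apply eq_of_mulVec
    intro v
    rw [h v (htop v), Matrix.neg_mulVec, Matrix.one_mulVec]

/-- determinant of a reflection -/
theorem det_reflection {T : Mn n} {v0 : Vn n} (h0 : v0 ≠ 0) (hT0 : T *ᵥ v0 = -v0)
    (hT : ∀ v, ∃ b : ZMod 3, T *ᵥ v - v = b • v0) : T.det = -1 := by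
  choose b hb using hT
  let φ : Vn n := fun j => b (Pi.single j 1)
  have h1 : T = 1 + Matrix.replicateCol Unit v0 * Matrix.replicateRow Unit φ := by
    apply Matrix.ext_of_mulVec_single
    intro j
    have h2 := hb (Pi.single j 1)
    rw [sub_eq_iff_eq_add] at h2
    rw [h2, Matrix.add_mulVec, Matrix.one_mulVec, add_comm]
    congr 1
    ext i
    rw [Matrix.mulVec_single_one]
    simp [Matrix.mul_apply, φ, mul_comm]
  have h2 : T *ᵥ v0 = v0 + (φ ⬝ᵥ v0) • v0 := by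
    rw [h1, Matrix.add_mulVec, Matrix.one_mulVec, ← Matrix.mulVec_mulVec]
    congr 1
    ext i
    simp [Matrix.mulVec, dotProduct, Matrix.replicateCol, Matrix.replicateRow, mul_comm]
  have h3 : φ ⬝ᵥ v0 = 1 := by
    rw [hT0] at h2
    have h4 : ((φ ⬝ᵥ v0) + 2) • v0 = 0 := by
      rw [add_smul, two_smul]
      have : (φ ⬝ᵥ v0) • v0 + (v0 + v0) = (v0 + (φ ⬝ᵥ v0) • v0) + v0 := by abel
      rw [this, ← h2]
      abel
    have h5 := (smul_eq_zero.1 h4).resolve_right h0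
    have h6 : ∀ x : ZMod 3, x + 2 = 0 → x = 1 := by decide
    exact h6 _ h5
  rw [h1, Matrix.det_one_add_replicateCol_mul_replicateRow, h3]
  decide

theorem commuting_six {U Y : Mn 6} (hY : Y ^ 11 = 1) (hne : Y ≠ 1) (hc : U * Y = Y * U)
    (hU : U * U = 1 ∨ U * U = -1) (hd : U.det = 1) : U = 1 ∨ U = -1 := by
  -- a fixed vector
  obtain ⟨v1, hv1⟩ : ∃ v1 : Vn 6, nY Y *ᵥ v1 ≠ 0 := by
    by_contra hcon
    push Not at hcon
    have h1 : (kr (nY Y) : Set (Vn 6)) = Set.univ := Set.eq_univ_of_forall hcon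
    have e1 : (kr (nY Y) : Set (Vn 6)).ncard = 3 ^ 5 := by
      rw [← card_kr_nY (by norm_num) hY hne]; rfl
    rw [h1, Set.ncard_univ, card_V] at e1
    norm_num at e1
  obtain ⟨v0, hv1, hYv0⟩ : ∃ v0 : Vn 6, v0 ≠ 0 ∧ Y *ᵥ v0 = v0 := ⟨nY Y *ᵥ v1, hv1, mulVec_nY hY v1⟩
  -- fixed vectors are multiples of `v0`
  have hfix : ∀ w : Vn 6, Y *ᵥ w = w → ∃ b : ZMod 3, w = b • v0 := by
    intro w hw
    have hle := card_mul_le (W := kr (Y - 1)) (W' := kr (nY Y)) (fun v h1 h2 => by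
      rw [mem_kr, Matrix.sub_mulVec, Matrix.one_mulVec, sub_eq_zero] at h1
      exact fix_n h2 h1)
    rw [card_kr_nY (by norm_num) hY hne] at hle
    have h3 : Nat.card (kr (Y - 1)) ≤ 3 := by
      have h5 : (3 : ℕ) ^ 6 = 3 * 3 ^ 5 := by norm_num
      rw [h5] at hle
      exact Nat.le_of_mul_le_mul_right hle (by norm_num)
    have hmem : ∀ u : Vn 6, Y *ᵥ u = u → u ∈ kr (Y - 1) := fun u hu => by
      rw [mem_kr, Matrix.sub_mulVec, Matrix.one_mulVec, hu, sub_self]
    by_contra hcon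
    push Not at hcon
    let g : Option (ZMod 3) → Vn 6 := fun o => Option.elim o w fun b => b • v0
    have hg : ∀ o, g o ∈ kr (Y - 1) := by
      intro o
      rcases o with _ | b
      · exact hmem w hw
      · exact hmem (b • v0) (by rw [Matrix.mulVec_smul, hYv0])
    have hgi : Function.Injective g := by
      intro a b hab
      rcases a with _ | a <;> rcases b with _ | b
      · rfl
      · exact absurd hab (hcon b)
      · exact absurd hab.symm (hcon a)
      · have h4 : a • v0 = b • v0 := hab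
        rw [← sub_eq_zero, ← sub_smul] at h4
        rw [sub_eq_zero.1 ((smul_eq_zero.1 h4).resolve_right hv1)]
    let f : Option (ZMod 3) → kr (Y - 1) := fun o => ⟨g o, hg o⟩
    have hf : Function.Injective f := fun a b hab => hgi (congrArg Subtype.val hab)
    have h4 := Nat.card_le_card_of_injective f hf
    rw [Nat.card_eq_fintype_card (α := Option (ZMod 3)), Fintype.card_option, ZMod.card] at h4
    omega
  obtain ⟨b, hb⟩ := hfix (U *ᵥ v0) (by rw [Matrix.mulVec_mulVec, ← hc, ← Matrix.mulVec_mulVec, hYv0])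
  have hUU : (U * U) *ᵥ v0 = (b * b) • v0 := by
    rw [← Matrix.mulVec_mulVec, hb, Matrix.mulVec_smul, hb, smul_smul]
  have hU1 : U * U = 1 := by
    refine hU.resolve_right fun h => ?_
    rw [h, Matrix.neg_mulVec, Matrix.one_mulVec] at hUU
    have h1 : (b * b + 1) • v0 = 0 := by rw [add_smul, one_smul, ← hUU, neg_add_cancel]
    have h2 := (smul_eq_zero.1 h1).resolve_right hv1
    have h3 : ∀ b : ZMod 3, b * b + 1 ≠ 0 := by decide
    exact h3 b h2
  have hbb : b = 1 ∨ b = -1 := by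
    rw [hU1, Matrix.one_mulVec] at hUU
    have h1 : (b * b - 1) • v0 = 0 := by rw [sub_smul, one_smul, ← hUU, sub_self]
    have h2 := (smul_eq_zero.1 h1).resolve_right hv1
    have h3 : ∀ b : ZMod 3, b * b - 1 = 0 → b = 1 ∨ b = -1 := by decide
    exact h3 b h2
  -- decomposition
  have hdec : ∀ v : Vn 6, ∃ (u : Vn 6) (c : ZMod 3), u ∈ kr (nY Y) ∧ v = u + c • v0 := by
    intro v
    obtain ⟨c, hcc⟩ := hfix (nY Y *ᵥ v) (mulVec_nY hY v)
    refine ⟨v + nY Y *ᵥ v, -c, ?_, ?_⟩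
    · rw [mem_kr, Matrix.mulVec_add, nY_fix (mulVec_nY hY v), two_smul]
      have h1 : nY Y *ᵥ v + (nY Y *ᵥ v + nY Y *ᵥ v) = (3 : ZMod 3) • (nY Y *ᵥ v) := by
        have : (3 : ZMod 3) = 1 + (1 + 1) := by decide
        rw [this, add_smul, add_smul, one_smul]
      rw [h1]
      have : (3 : ZMod 3) = 0 := by decide
      rw [this, zero_smul]
    · rw [neg_smul, ← hcc]
      abel
  have hdneg : ∀ A : Mn 6, (-A).det = A.det := by
    intro A
    rw [Matrix.det_neg, Fintype.card_fin]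
    have : ((-1 : ZMod 3) ^ 6) = 1 := by decide
    rw [this, one_mul]
  rcases scalar_on (by norm_num) hY hne hc hU1 with h | h
  · rcases hbb with rfl | rfl
    · left
      apply eq_of_mulVec
      intro v
      obtain ⟨u, c, hu, rfl⟩ := hdec v
      rw [Matrix.mulVec_add, Matrix.mulVec_smul, h u hu, hb, one_smul, Matrix.one_mulVec]
    · exfalso
      have h1 : U.det = -1 := by
        refine det_reflection hv1 (by rw [hb, neg_one_smul]) fun v => ?_
        obtain ⟨u, c, hu, rfl⟩ := hdec v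
        refine ⟨-c - c, ?_⟩
        rw [Matrix.mulVec_add, Matrix.mulVec_smul, h u hu, hb, smul_smul, mul_neg_one, sub_smul]
        abel
      rw [hd] at h1
      exact absurd h1 (by decide)
  · rcases hbb with rfl | rfl
    · exfalso
      have h1 : (-U).det = -1 := by
        refine det_reflection hv1 (by rw [Matrix.neg_mulVec, hb, one_smul]) fun v => ?_
        obtain ⟨u, c, hu, rfl⟩ := hdec v
        refine ⟨-c - c, ?_⟩
        rw [Matrix.neg_mulVec, Matrix.mulVec_add, Matrix.mulVec_smul, h u hu, hb, one_smul, sub_smul, neg_smul]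
        abel
      rw [hdneg, hd] at h1
      exact absurd h1 (by decide)
    · right
      apply eq_of_mulVec
      intro v
      obtain ⟨u, c, hu, rfl⟩ := hdec v
      rw [Matrix.mulVec_add, Matrix.mulVec_smul, h u hu, hb, Matrix.neg_mulVec, Matrix.one_mulVec, smul_smul,
        mul_neg_one, neg_smul]
      abel

end Cfsg.Agent.H421.Eleven
end

-- part: H421/AutL
section
/-!
# The automorphisms of `PSL_n(3)` (helper421)

`c A` : conjugation by `A ∈ GL_n(3)`; `io` : inverse transpose.  Every automorphism is `c A` or `c A * io`.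
-/

set_option autoImplicit false

namespace Cfsg.Agent.H421.AutL

open Matrix
open Cfsg.Agent.ClassicalGeometry.AutPSL
open Cfsg.Agent.ClassicalGeometry.AutPSL.Root (pr pr_surjective)

variable {n : ℕ}

/-- `GL_n(3)` -/
abbrev Gn (n : ℕ) := GL (Fin n) (ZMod 3)
/-- `SL_n(3)` -/
abbrev Sn (n : ℕ) := Matrix.SpecialLinearGroup (Fin n) (ZMod 3)
/-- `PSL_n(3)` -/
abbrev Ln (n : ℕ) := Matrix.ProjectiveSpecialLinearGroup (Fin n) (ZMod 3)

/-- conjugation by an element of `GL` -/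
def c : Gn n →* MulAut (Ln n) := (Auto.lift).comp Auto.cj

/-- the graph automorphism -/
def io : MulAut (Ln n) := Auto.lift Auto.itr

theorem io_mul_io : (io : MulAut (Ln n)) * io = 1 := by
  rw [io, ← map_mul, Auto.itr_mul_itr, map_one]

theorem io_inv : (io : MulAut (Ln n))⁻¹ = io := inv_eq_of_mul_eq_one_left io_mul_io

/-- the transpose of the inverse -/
def tinv (A : Gn n) : Gn n where
  val := ((A⁻¹ : Gn n) : Matrix (Fin n) (Fin n) (ZMod 3))ᵀ
  inv := (A : Matrix (Fin n) (Fin n) (ZMod 3))ᵀ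
  val_inv := by rw [← transpose_mul, ← Units.val_mul, mul_inv_cancel, Units.val_one, transpose_one]
  inv_val := by rw [← transpose_mul, ← Units.val_mul, inv_mul_cancel, Units.val_one, transpose_one]

/-- the determinant as an element of `ZMod 3` -/
def dt (A : Gn n) : ZMod 3 := (A : Matrix (Fin n) (Fin n) (ZMod 3)).det

theorem dt_mul (A B : Gn n) : dt (A * B) = dt A * dt B := by
  rw [dt, Units.val_mul, det_mul]; rfl

theorem dt_one : dt (1 : Gn n) = 1 := by rw [dt, Units.val_one, det_one]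

theorem dt_ne (A : Gn n) : dt A ≠ 0 := by
  intro h
  have := dt_mul A A⁻¹
  rw [mul_inv_cancel, dt_one, h, zero_mul] at this
  exact one_ne_zero this

theorem dt_cases (A : Gn n) : dt A = 1 ∨ dt A = -1 := by
  have : ∀ x : ZMod 3, x ≠ 0 → x = 1 ∨ x = -1 := by decide
  exact this _ (dt_ne A)

theorem dt_inv (A : Gn n) : dt A⁻¹ = dt A := by
  have h1 := dt_mul A A⁻¹
  rw [mul_inv_cancel, dt_one] at h1
  have : ∀ x y : ZMod 3, 1 = x * y → y = x := by decide
  exact this _ _ h1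

theorem dt_tinv (A : Gn n) : dt (tinv A) = dt A := by
  rw [dt, tinv]
  change (((A⁻¹ : Gn n) : Matrix (Fin n) (Fin n) (ZMod 3))ᵀ).det = _
  rw [det_transpose]
  exact dt_inv A

theorem dt_sq (A : Gn n) : dt A * dt A = 1 := by
  have : ∀ x : ZMod 3, x ≠ 0 → x * x = 1 := by decide
  exact this _ (dt_ne A)

theorem io_mul_c (A : Gn n) : io * c A = c (tinv A) * io := by
  have h : (Auto.itr * Auto.cj A : MulAut (Sn n)) = Auto.cj (tinv A) * Auto.itr := by
    apply MulEquiv.ext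
    intro g
    have h1 : (Auto.cj A g)⁻¹ = Auto.cj A g⁻¹ := (map_inv _ _).symm
    apply Subtype.ext
    change ((((Auto.cj A g)⁻¹ : Sn n)) : Matrix (Fin n) (Fin n) (ZMod 3))ᵀ = _
    rw [h1, Auto.coe_cj, transpose_mul, transpose_mul]
    change _ = ((A⁻¹ : Gn n) : Matrix (Fin n) (Fin n) (ZMod 3))ᵀ * ((g⁻¹ : Sn n) : Matrix (Fin n) (Fin n) (ZMod 3))ᵀ *
      (A : Matrix (Fin n) (Fin n) (ZMod 3))ᵀ
    rw [mul_assoc]
  rw [io, c, MonoidHom.comp_apply, MonoidHom.comp_apply, ← map_mul, h, map_mul]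

theorem form (hn : 3 ≤ n) (α : MulAut (Ln n)) : (∃ A, α = c A) ∨ (∃ A, α = c A * io) := by
  have : Fact (Nat.Prime 3) := ⟨by norm_num⟩
  rcases Main.surj_three 3 hn α with ⟨A, σ, h⟩ | ⟨A, σ, h⟩
  · refine Or.inl ⟨A, ?_⟩
    rw [h, Subsingleton.elim σ (RingEquiv.refl _)]
    rw [show (Auto.fld (RingEquiv.refl (ZMod 3)) : MulAut (Sn n)) = 1 from map_one Auto.fld, mul_one]
    rfl
  · refine Or.inr ⟨A, ?_⟩
    rw [h, Subsingleton.elim σ (RingEquiv.refl _)]
    rw [show (Auto.fld (RingEquiv.refl (ZMod 3)) : MulAut (Sn n)) = 1 from map_one Auto.fld, mul_one, map_mul]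
    rfl

theorem c_eq_one (hn : 3 ≤ n) {A : Gn n} (h : c A = 1) : ∃ r : ZMod 3, scalar (Fin n) r = (A : Matrix (Fin n) (Fin n) (ZMod 3)) := by
  have : Nontrivial (Fin n) := Fin.nontrivial_iff_two_le.2 (by omega)
  have := Main.injective_aux (C := A) (σ := (1 : ZMod 3 ≃+* ZMod 3)) (τ := 1) (by
    rw [map_one Auto.fld, mul_one, map_one]; exact h)
  exact this.1

theorem c_mul_io_ne (hn : 3 ≤ n) {A B : Gn n} : c A * io ≠ c B := by
  intro h
  refine Main.not_graph (ι := Fin n) (F := ZMod 3) (by simpa using hn) (C := B⁻¹ * A) (σ := 1) (τ := 1) ?_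
  rw [map_one Auto.fld, mul_one, map_one, map_mul, map_mul, map_mul]
  change c B⁻¹ * c A * io = 1
  rw [mul_assoc, h, ← map_mul, inv_mul_cancel, map_one]

theorem conj_pr (x : Sn n) : MulAut.conj (pr x : Ln n) = c (Matrix.SpecialLinearGroup.toGL x) := by
  apply MulEquiv.ext
  intro y
  obtain ⟨y, rfl⟩ := pr_surjective y
  rw [MulAut.conj_apply, ← map_mul, ← map_inv, ← map_mul]
  change _ = pr (Auto.cj _ y)
  congr 1

theorem c_of_det {A : Gn n} (h : dt A = 1) : ∃ x : Sn n, c A = MulAut.conj (pr x : Ln n) := by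
  have h' : (A : Matrix (Fin n) (Fin n) (ZMod 3)).det = 1 := h
  let x : Sn n := ⟨A, h'⟩
  have hx : Matrix.SpecialLinearGroup.toGL x = A := Units.ext rfl
  exact ⟨x, by rw [conj_pr, hx]⟩

theorem dt_toGL (x : Sn n) : dt (Matrix.SpecialLinearGroup.toGL x) = 1 := x.2

/-- a product of automorphisms of the second kind -/
theorem mul_mix (A B : Gn n) : c A * io * (c B * io) = c (A * tinv B) := by
  rw [mul_assoc, ← mul_assoc io, io_mul_c, mul_assoc (c (tinv B)), io_mul_io, mul_one, ← map_mul]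

theorem mul_mix' (A B : Gn n) : c A * io * c B = c (A * tinv B) * io := by
  rw [mul_assoc, io_mul_c, ← mul_assoc, ← map_mul]

theorem inv_mix (A : Gn n) : (c A * io)⁻¹ = c (tinv A⁻¹) * io := by
  rw [_root_.mul_inv_rev, io_inv, ← map_inv, io_mul_c]

/-- powers of automorphisms of the second kind -/
theorem pow_mix (A : Gn n) (k : ℕ) : (∃ B, (c A * io) ^ (2 * k) = c B) ∧ (∃ B, (c A * io) ^ (2 * k + 1) = c B * io) := by
  induction k with
  | zero => exact ⟨⟨1, by rw [Nat.mul_zero, pow_zero, map_one]⟩, ⟨A, by rw [Nat.mul_zero, zero_add, pow_one]⟩⟩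
  | succ k ih =>
    obtain ⟨⟨B, hB⟩, ⟨C, hC⟩⟩ := ih
    have h1 : ∃ B, (c A * io) ^ (2 * (k + 1)) = c B := ⟨C * tinv A, by
      rw [show 2 * (k + 1) = 2 * k + 1 + 1 by ring, pow_succ, hC, mul_mix]⟩
    obtain ⟨D, hD⟩ := h1
    exact ⟨⟨D, hD⟩, ⟨D * A, by rw [pow_succ, hD, map_mul, mul_assoc]⟩⟩

/-- an automorphism of odd order is of the first kind -/
theorem form_of_odd (hn : 3 ≤ n) {α : MulAut (Ln n)} {m : ℕ} (hm : Odd m) (h : α ^ m = 1) : ∃ A, α = c A := by
  rcases form hn α with h1 | ⟨A, rfl⟩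
  · exact h1
  · exfalso
    obtain ⟨k, rfl⟩ := hm
    obtain ⟨B, hB⟩ := (pow_mix A k).2
    rw [h, ← map_one (c (n := n))] at hB
    exact c_mul_io_ne hn hB.symm

/-- the kernel of `SL → PSL` -/
theorem eq_of_pr_eq {x y : Sn n} (h : (pr x : Ln n) = pr y) : ∃ s : ZMod 3, (y : Matrix (Fin n) (Fin n) (ZMod 3)) = s • (x : Matrix (Fin n) (Fin n) (ZMod 3)) :=
  Root.exists_smul_of_pr_eq h

theorem pr_one {x : Sn n} (h : (pr x : Ln n) = 1) : (x : Matrix (Fin n) (Fin n) (ZMod 3)) = 1 ∨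
    (x : Matrix (Fin n) (Fin n) (ZMod 3)) = -1 := by
  obtain ⟨s, hs⟩ := eq_of_pr_eq (x := 1) (y := x) (by rw [h, map_one])
  rw [Matrix.SpecialLinearGroup.coe_one] at hs
  have h3 : ∀ s : ZMod 3, s = 0 ∨ s = 1 ∨ s = -1 := by decide
  rcases h3 s with rfl | rfl | rfl
  · left
    have h1 : (x : Matrix (Fin n) (Fin n) (ZMod 3)).det = 1 := x.2
    rw [hs, zero_smul] at h1 ⊢
    rcases Nat.eq_zero_or_pos n with rfl | hn
    · exact Subsingleton.elim _ _
    · have : Nonempty (Fin n) := ⟨⟨0, hn⟩⟩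
      rw [det_zero] at h1
      exact absurd h1 zero_ne_one
  · left; rw [hs, one_smul]
  · right; rw [hs, neg_smul, one_smul]

/-- lifting an element of order `m` coprime to 2 … in a form good for 11 -/
theorem exists_lift {l : Ln n} {m k : ℕ} (hm : l ^ m = 1) (hk : Even k) (hlk : l ^ k = l) :
    ∃ y : Sn n, (pr y : Ln n) = l ∧ y ^ m = 1 := by
  obtain ⟨x, rfl⟩ := pr_surjective l
  refine ⟨x ^ k, by rw [map_pow, hlk], ?_⟩
  rw [← map_pow] at hm
  rw [← pow_mul, mul_comm, pow_mul]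
  apply Subtype.ext
  rw [Matrix.SpecialLinearGroup.coe_pow, Matrix.SpecialLinearGroup.coe_one]
  rcases pr_one hm with h | h
  · rw [h, one_pow]
  · rw [h, hk.neg_one_pow]

theorem not_fixed (hn9 : n ≤ 9) {A : Gn n} {l : Ln n} (h11 : l ^ 11 = 1) (h1 : l ≠ 1)
    (h : (c A * io : MulAut (Ln n)) l = l) : False := by
  obtain ⟨y, rfl, hy⟩ := exists_lift h11 (k := 12) (by decide) (by rw [pow_succ, h11, one_mul])
  have h2 : (pr (Auto.cj A (Auto.itr y)) : Ln n) = pr y := h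
  obtain ⟨s, hs⟩ := eq_of_pr_eq h2
  have hiy : y⁻¹ = y ^ 10 := by
    rw [inv_eq_iff_mul_eq_one, ← pow_succ', hy]
  have hy' : (y : Matrix (Fin n) (Fin n) (ZMod 3)) ^ 11 = 1 := by
    rw [← Matrix.SpecialLinearGroup.coe_pow, hy, Matrix.SpecialLinearGroup.coe_one]
  have hne : (y : Matrix (Fin n) (Fin n) (ZMod 3)) ≠ 1 := by
    intro h0
    apply h1
    rw [show y = 1 from Subtype.ext h0, map_one]
  have hz : (Auto.cj A (Auto.itr y)) ^ 11 = 1 := by
    rw [← map_pow, ← map_pow, hy, map_one, map_one]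
  have h3 : s ^ 11 • (1 : Matrix (Fin n) (Fin n) (ZMod 3)) = 1 := by
    have : (y : Matrix (Fin n) (Fin n) (ZMod 3)) ^ 11 =
        (s • (Auto.cj A (Auto.itr y) : Matrix (Fin n) (Fin n) (ZMod 3))) ^ 11 := by rw [← hs]
    rw [smul_pow, hy', ← Matrix.SpecialLinearGroup.coe_pow, hz, Matrix.SpecialLinearGroup.coe_one] at this
    exact this.symm
  have hs1 : s = 1 := by
    rcases Nat.eq_zero_or_pos n with rfl | hn
    · exact absurd (Subsingleton.elim _ _) hne
    · have := congrFun (congrFun h3 ⟨0, hn⟩) ⟨0, hn⟩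
      rw [Matrix.smul_apply, Matrix.one_apply_eq, smul_eq_mul, mul_one] at this
      have h4 : ∀ s : ZMod 3, s ^ 11 = 1 → s = 1 := by decide
      exact h4 s this
  rw [hs1, one_smul, Auto.coe_cj, Auto.coe_itr, hiy, Matrix.SpecialLinearGroup.coe_pow] at hs
  refine Eleven.not_contragredient hn9 (Y := (y : Matrix (Fin n) (Fin n) (ZMod 3)))
    (M := (A : Matrix (Fin n) (Fin n) (ZMod 3))) (dt_ne A) hy' hne ?_
  conv_rhs => rw [hs]
  rw [mul_assoc _ ((A⁻¹ : Gn n) : Matrix (Fin n) (Fin n) (ZMod 3)), ← Units.val_mul, inv_mul_cancel, Units.val_one,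
    mul_one]

/-- no elements of order 22 in `PSL_n(3)` -/
theorem no22_aux (H : ∀ U Y : Sn n, Y ^ 11 = 1 → Y ≠ 1 → U * Y = Y * U →
    ((U : Matrix (Fin n) (Fin n) (ZMod 3)) * U = 1 ∨ (U : Matrix (Fin n) (Fin n) (ZMod 3)) * U = -1) →
    ((U : Matrix (Fin n) (Fin n) (ZMod 3)) = 1 ∨ (U : Matrix (Fin n) (Fin n) (ZMod 3)) = -1)) (l : Ln n) :
    orderOf l ≠ 22 := by
  intro hl
  obtain ⟨x, rfl⟩ := pr_surjective l
  have h22 : (pr (x ^ 22) : Ln n) = 1 := by rw [map_pow, ← hl, pow_orderOf_eq_one]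
  have h11 : (pr (x ^ 11) : Ln n) ≠ 1 := by
    rw [map_pow]
    intro h
    have := orderOf_dvd_of_pow_eq_one h
    rw [hl] at this
    omega
  have h24 : (pr (x ^ 24) : Ln n) ≠ 1 := by
    rw [map_pow]
    intro h
    have := orderOf_dvd_of_pow_eq_one h
    rw [hl] at this
    omega
  have hU := H (x ^ 11) (x ^ 24) ?_ ?_ ?_ ?_
  · apply h11
    rcases hU with h | h
    · rw [show x ^ 11 = 1 from Subtype.ext h, map_one]
    · have h1 := Root.pr_eq_of_smul (x := 1) (y := x ^ 11) (c := -1) (by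
        rw [h, Matrix.SpecialLinearGroup.coe_one, neg_smul, one_smul])
      rw [← h1, map_one]
  · rw [← pow_mul, show 24 * 11 = 22 * 12 by norm_num, pow_mul]
    apply Subtype.ext
    rw [Matrix.SpecialLinearGroup.coe_pow, Matrix.SpecialLinearGroup.coe_one]
    rcases pr_one h22 with h | h
    · rw [h, one_pow]
    · rw [h]
      exact Even.neg_one_pow (by decide)
  · intro h
    exact h24 (by rw [h, map_one])
  · rw [← pow_add, ← pow_add]
  · rw [← Matrix.SpecialLinearGroup.coe_mul, ← pow_add]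
    exact pr_one h22

theorem no22_five (l : Ln 5) : orderOf l ≠ 22 := by
  refine no22_aux (fun U Y hY hne hc hU => ?_) l
  refine Eleven.commuting_five (U := U) (Y := Y) ?_ ?_ ?_ hU
  · rw [← Matrix.SpecialLinearGroup.coe_pow, hY, Matrix.SpecialLinearGroup.coe_one]
  · exact fun h => hne (Subtype.ext h)
  · rw [← Matrix.SpecialLinearGroup.coe_mul, hc, Matrix.SpecialLinearGroup.coe_mul]

theorem no22_six (l : Ln 6) : orderOf l ≠ 22 := by
  refine no22_aux (fun U Y hY hne hc hU => ?_) l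
  refine Eleven.commuting_six (U := U) (Y := Y) ?_ ?_ ?_ hU ?_
  · rw [← Matrix.SpecialLinearGroup.coe_pow, hY, Matrix.SpecialLinearGroup.coe_one]
  · exact fun h => hne (Subtype.ext h)
  · rw [← Matrix.SpecialLinearGroup.coe_mul, hc, Matrix.SpecialLinearGroup.coe_mul]
  · exact U.2

end Cfsg.Agent.H421.AutL
end

private theorem dce_7cf74d567b0b : _root_.True := by
  try have : _root_.True := by simp only [_root_.Cfsg.Agent.H421.AutL.dt.eq_1]
  try have : _root_.True := by simp only [_root_.Cfsg.Agent.H421.AutL.io.eq_1]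
  try have : _root_.True := by simp only [_root_.Cfsg.Agent.H421.AutL.c.eq_1]
  try have : _root_.True := by simp only [_root_.Cfsg.Agent.H421.AutL.tinv.eq_1]
  exact _root_.True.intro
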